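import Mathlib

/-!
An integer lemma on multiplicities in a block with cyclic defect group.
-/

set_option maxHeartbeats 400000

namespace Cfsg.Agent.Lib.Char.Pair

open Finset

theorem four_orbits {B : Type*} [DecidableEq B] (S : Finset B) (d v w : B → ℤ) {i : B} (hi : i ∈ S)
    (hd : 0 < d i) (hv : v i = 1) (hw : w i = 1) (h1 : ∑ j ∈ S, v j * v j = 2)
    (h2 : ∑ j ∈ S, w j * w j = 2) (h3 : ∑ j ∈ S, v j * w j = 0) (h4 : ∑ j ∈ S, d j * v j = 0)
    (h5 : ∑ j ∈ S, d j * w j = 0) : False := by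
  rw [← add_sum_erase _ _ hi] at h1 h2 h3 h4 h5
  rw [hv] at h1 h3 h4
  rw [hw] at h2 h3 h5
  have h6 : ∑ j ∈ S.erase i, (v j + w j) * (v j + w j) = 0 := by
    have : ∀ j ∈ S.erase i, (v j + w j) * (v j + w j) = v j * v j + w j * w j + 2 * (v j * w j) :=
      fun j _ => by ring
    rw [sum_congr rfl this, sum_add_distrib, sum_add_distrib, ← mul_sum]
    linarith
  rw [sum_eq_zero_iff_of_nonneg fun j _ => mul_self_nonneg _] at h6
  have h7 : ∑ j ∈ S.erase i, d j * v j + ∑ j ∈ S.erase i, d j * w j = 0 := by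
    rw [← sum_add_distrib]
    exact sum_eq_zero fun j hj => by rw [← mul_add, mul_self_eq_zero.1 (h6 j hj), mul_zero]
  linarith

open Classical in
theorem comb {L B : Type*} [Fintype L] (S : Finset B) (a : B → L → ℤ) (ha : ∀ i l, 0 ≤ a i l)
    (d : B → ℤ) (o : L) (R : L → L → Prop) (Rrefl : ∀ l, R l l) (Rsymm : ∀ l m, R l m → R m l)
    (e p w : ℕ) (I0 I1 : Finset L) (ho0 : o ∉ I0) (ho1 : o ∉ I1)
    (hI0 : #I0 + 1 = w) (hI1 : #I1 + w = p * w) (hw : w = 1 ∨ p ≤ w) (hp : 3 ≤ p)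
    (he2 : 2 ≤ e) (he : e + 1 ≤ p) (horb : ∀ l, l ≠ o → #(univ.filter (R l)) = e)
    (hR1 : ∀ l ∈ I1, ∀ m, R l m → m ∈ I1) (hR0 : ∀ l ∈ I0, l ∉ I1)
    (hG2 : ∀ l m l' m', l ≠ o → m ≠ o → l' ≠ o → m' ≠ o →
      ∑ i ∈ S, (a i l - a i m) * (a i l' - a i m') = (if R l' l then 1 else 0) -
        (if R l' m then 1 else 0) - (if R m' l then 1 else 0) + (if R m' m then 1 else 0))
    (hG1 : ∀ l, l ≠ o → ∑ i ∈ S, (a i o - a i l) * (a i o - a i l) = e + 1)
    (hD : ∀ l m, ∑ i ∈ S, d i * (a i l - a i m) = 0)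
    {t : B} (ht : t ∈ S) (ht1 : a t o = 1) (ht0 : ∀ l, l ≠ o → a t l = 0)
    {i : B} (hi : i ∈ S) (hit : i ≠ t) (hd : 0 < d i) {l0 : L} (hl0 : l0 ∈ I1) (hl1 : 1 ≤ a i l0) :
    a i o + ∑ l ∈ I0, a i l ≤ ∑ l ∈ I1, a i l := by
  have n0 : ∀ l ∈ I0, l ≠ o := fun l hl h => ho0 (h ▸ hl)
  have n1 : ∀ l ∈ I1, l ≠ o := fun l hl h => ho1 (h ▸ hl)
  have hle : ∀ l m, (a i l - a i m) * (a i l - a i m) ≤
      ∑ i ∈ S, (a i l - a i m) * (a i l - a i m) := fun l m =>
    single_le_sum (f := fun i => (a i l - a i m) * (a i l - a i m))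
      (fun j _ => mul_self_nonneg _) hi
  have f1 : ∀ l m, l ≠ o → m ≠ o → a i l ≤ a i m + 1 := by
    intro l m hl hm
    have h1 := hle l m
    rw [hG2 l m l m hl hm hl hm] at h1
    have h2 : (a i l - a i m) * (a i l - a i m) ≤ 2 := by
      refine h1.trans ?_
      split_ifs <;> norm_num
    nlinarith
  have Rne : ∀ l m, l ≠ o → R l m → m ≠ o → a i l = a i m := by
    intro l m hl h hm
    have h1 := hle l m
    rw [hG2 l m l m hl hm hl hm, if_pos (Rrefl _), if_pos (Rrefl _), if_pos h,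
      if_pos (Rsymm _ _ h)] at h1
    have : (a i l - a i m) * (a i l - a i m) = 0 := le_antisymm (by linarith) (mul_self_nonneg _)
    linarith [mul_self_eq_zero.1 this]
  have f2 : a i o ≤ e * a i l0 := by
    have h1 := hG1 l0 (n1 _ hl0)
    have h2 : ∑ j ∈ ({i, t} : Finset B), (a j o - a j l0) * (a j o - a j l0) ≤
        ∑ j ∈ S, (a j o - a j l0) * (a j o - a j l0) :=
      sum_le_sum_of_subset_of_nonneg (by
        intro j hj
        rcases mem_insert.1 hj with rfl | hj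
        · exact hi
        · rw [mem_singleton.1 hj]; exact ht) fun _ _ _ => mul_self_nonneg _
    rw [sum_pair hit, h1, ht1, ht0 _ (n1 _ hl0)] at h2
    have he' : (2 : ℤ) ≤ e := by exact_mod_cast he2
    have h3 : a i o - a i l0 ≤ e - 1 := by
      by_contra hc
      push Not at hc
      have : (e : ℤ) ≤ a i o - a i l0 := by omega
      nlinarith
    nlinarith
  set O := univ.filter (R l0) with hO
  have hOI : O ⊆ I1 := fun m hm => hR1 _ hl0 _ (mem_filter.1 hm).2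
  have hOc : #O = e := horb _ (n1 _ hl0)
  have f3 : ∑ l ∈ O, a i l = e * a i l0 := by
    rw [sum_congr rfl fun m hm => (Rne l0 m (n1 _ hl0) (mem_filter.1 hm).2 (n1 _ (hOI hm))).symm,
      sum_const, hOc, nsmul_eq_mul]
  rw [← sum_sdiff hOI, f3]
  suffices h : ∑ l ∈ I0, a i l ≤ ∑ l ∈ I1 \ O, a i l by linarith
  have hc1 : #(I1 \ O) + e = #I1 := by rw [← hOc, card_sdiff_add_card_eq_card hOI]
  rcases hw with rfl | hw
  · have : I0 = ∅ := card_eq_zero.1 (by omega)
    rw [this, sum_empty]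
    exact sum_nonneg fun l _ => ha i l
  by_cases hz : ∃ m, m ≠ o ∧ a i m = 0
  · obtain ⟨m0, hm0, hm00⟩ := hz
    have hle1 : ∀ l, l ≠ o → a i l ≤ 1 := fun l hl => by simpa [hm00] using f1 l m0 hl hm0
    by_cases hall : ∀ l ∈ I0, a i l = 0
    · rw [sum_eq_zero hall]
      exact sum_nonneg fun l _ => ha i l
    push Not at hall
    obtain ⟨n, hn, hn1⟩ := hall
    have hn1 : a i n = 1 := by have := hle1 n (n0 _ hn); have := ha i n; omega
    have hl1 : a i l0 = 1 := le_antisymm (hle1 _ (n1 _ hl0)) hl1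
    have key : ∀ m, m ≠ o → a i m = 0 → R m0 m := by
      intro m hm hm1
      by_contra hR
      have r1 : ¬ R n l0 := fun h => hR0 n hn (hR1 _ hl0 _ (Rsymm _ _ h))
      have nR : ∀ x y, x ≠ o → y ≠ o → a i x ≠ a i y → ¬ R x y := fun x y hx hy h h' =>
        h (Rne x y hx h' hy)
      have hn' := n0 _ hn
      have hl' := n1 _ hl0
      refine four_orbits S d (fun j => a j l0 - a j m0) (fun j => a j n - a j m) hi hd
        (by simp [hl1, hm00]) (by simp [hn1, hm1]) ?_ ?_ ?_ (hD _ _) (hD _ _)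
      · rw [hG2 _ _ _ _ hl' hm0 hl' hm0, if_pos (Rrefl _), if_pos (Rrefl _),
          if_neg (nR _ _ hl' hm0 (by omega)), if_neg (nR _ _ hm0 hl' (by omega))]
        norm_num
      · rw [hG2 _ _ _ _ hn' hm hn' hm, if_pos (Rrefl _), if_pos (Rrefl _),
          if_neg (nR _ _ hn' hm (by omega)), if_neg (nR _ _ hm hn' (by omega))]
        norm_num
      · rw [hG2 _ _ _ _ hl' hm0 hn' hm, if_neg r1, if_neg (nR _ _ hn' hm0 (by omega)),
          if_neg (nR _ _ hm hl' (by omega)), if_neg fun h => hR (Rsymm _ _ h)]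
        norm_num
    set O' := univ.filter (R m0)
    have hO' : #O' = e := horb _ hm0
    have g1 : ∑ l ∈ I0, a i l ≤ #I0 := by
      have := sum_le_card_nsmul I0 (a i) 1 fun l hl => hle1 l (n0 _ hl)
      simpa using this
    have g2 : (#((I1 \ O) \ O') : ℤ) ≤ ∑ l ∈ I1 \ O, a i l := by
      refine le_trans ?_ (sum_le_sum_of_subset_of_nonneg (sdiff_subset (t := O'))
        fun l _ _ => ha i l)
      have := card_nsmul_le_sum ((I1 \ O) \ O') (a i) 1 fun l hl => by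
        have hl' := n1 _ (mem_sdiff.1 (mem_sdiff.1 hl).1).1
        by_contra hc
        have h0 : a i l = 0 := by have := ha i l; omega
        exact (mem_sdiff.1 hl).2 (mem_filter.2 ⟨mem_univ _, key l hl' h0⟩)
      simpa using this
    have g3 : #(I1 \ O) ≤ #((I1 \ O) \ O') + e := hO' ▸ card_le_card_sdiff_add_card
    have g4 : #I0 ≤ #((I1 \ O) \ O') := by
      obtain ⟨p', rfl⟩ : ∃ p', p = p' + 3 := ⟨p - 3, by omega⟩
      obtain ⟨w', rfl⟩ : ∃ w', w = w' + (p' + 3) := ⟨w - (p' + 3), by omega⟩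
      nlinarith [Nat.zero_le (p' * w'), Nat.zero_le (p' * p')]
    have g5 : (#I0 : ℤ) ≤ #((I1 \ O) \ O') := by exact_mod_cast g4
    linarith
  · push Not at hz
    obtain ⟨m, hm, hmin⟩ := exists_min_image I1 (a i) ⟨l0, hl0⟩
    have hA : 1 ≤ a i m := by have := ha i m; have := hz m (n1 _ hm); omega
    have g1 : ∑ l ∈ I0, a i l ≤ #I0 * (2 * a i m) := by
      have := sum_le_card_nsmul I0 (a i) (2 * a i m) fun l hl => by
        have := f1 l m (n0 _ hl) (n1 _ hm); omega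
      simpa using this
    have g2 : #(I1 \ O) * a i m ≤ ∑ l ∈ I1 \ O, a i l := by
      have := card_nsmul_le_sum (I1 \ O) (a i) (a i m) fun l hl => hmin l (mem_sdiff.1 hl).1
      simpa using this
    have g4 : 2 * #I0 ≤ #(I1 \ O) := by
      obtain ⟨p', rfl⟩ : ∃ p', p = p' + 3 := ⟨p - 3, by omega⟩
      obtain ⟨w', rfl⟩ : ∃ w', w = w' + (p' + 3) := ⟨w - (p' + 3), by omega⟩
      nlinarith [Nat.zero_le (p' * w'), Nat.zero_le (p' * p')]
    have g5 : (2 * #I0 : ℤ) ≤ #(I1 \ O) := by exact_mod_cast g4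
    nlinarith

end Cfsg.Agent.Lib.Char.Pair
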