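import Cfsg.Agent.Lib.Char.PairGram
import Cfsg.Agent.Lib.Misc.CycSylow
import Cfsg.Agent.Lib.Glaub.RankTwo

/-!
Cyclic Sylow subgroups: `p`-solvability is detected on pairs of elements of order `p`.
-/

set_option maxHeartbeats 400000
set_option linter.unusedSectionVars false

namespace Cfsg.Agent.Lib.Char.Pair

open Cfsg.Agent.Lib.Char Cfsg.Agent.Lib.Core Finset ComplexConjugate

universe u

section Grp
variable {p : ℕ} [hp : Fact p.Prime] {G : Type*} [Group G] [Finite G]

theorem cyc_comm (P : Subgroup G) [IsCyclic P] : ∀ x ∈ P, ∀ y ∈ P, x * y = y * x := by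
  haveI : IsMulCommutative P := IsCyclic.isMulCommutative
  exact fun x hx y hy => setLike_mul_comm hx hy

theorem le_cent (P : Subgroup G) [IsCyclic P] {u : G} (hu : u ∈ P) :
    P ≤ Subgroup.centralizer {u} := fun y hy =>
  Subgroup.mem_centralizer_singleton_iff.2 (cyc_comm P y hy u hu)

theorem hnpc_cent (P : Sylow p G) [IsCyclic P] {u : G} (hu : u ∈ (P : Subgroup G)) (hu1 : u ≠ 1) :
    HasNormalPComplement p (Subgroup.centralizer {u}) := by
  refine (CycSylow.dichotomy ((isSyl_sylow P).mono (le_cent _ hu) le_top)).resolve_right ?_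
  rintro ⟨-, h⟩
  have : u ∈ (P : Subgroup G) ⊓ Subgroup.centralizer (Subgroup.centralizer {u} : Subgroup G) :=
    ⟨hu, fun y hy => Subgroup.mem_centralizer_singleton_iff.1 hy⟩
  rw [h] at this
  exact hu1 this

theorem cyc_free (P : Sylow p G) [IsCyclic P] {u n : G} (hu : u ∈ (P : Subgroup G)) (hu1 : u ≠ 1)
    (hn : n * u * n⁻¹ = u) {v : G} (hv : v ∈ (P : Subgroup G))
    (hnv : n * v * n⁻¹ ∈ (P : Subgroup G)) : n * v * n⁻¹ = v := by
  have hle := le_cent (P : Subgroup G) hu
  obtain ⟨z, hz, h⟩ := Transfer.exists_sylow_conj_of_hasNormalPComplement (hnpc_cent P hu hu1)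
    (P.subtype hle) ⟨n, Subgroup.mem_centralizer_singleton_iff.2 (mul_inv_eq_iff_eq_mul.1 hn)⟩
  have h1 : n * v * n⁻¹ = z * v * (z : G)⁻¹ := congrArg Subtype.val (h ⟨v, hle hv⟩ hv hnv)
  rw [h1, cyc_comm (P : Subgroup G) z hz v hv, mul_inv_cancel_right]

theorem exists_eq_pow (P : Subgroup G) [IsCyclic P] {x y : G} (hxP : x ∈ P) (hx : orderOf x = p)
    (hyP : y ∈ P) (hy : orderOf y = p) : ∃ j ∈ Ico 1 p, x ^ j = y := by
  classical
  have := CycSylow.mem_zpowers_of_isCyclic hyP hxP (by rw [← hy, pow_orderOf_eq_one]) hx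
  obtain ⟨j, hj, rfl⟩ := (mem_zpowers_iff_mem_range_orderOf.trans mem_image).1 this
  rw [hx, mem_range] at hj
  refine ⟨j, mem_Ico.2 ⟨Nat.pos_of_ne_zero ?_, hj⟩, rfl⟩
  rintro rfl
  rw [pow_zero, orderOf_one] at hy
  exact hp.out.one_lt.ne hy

theorem psolv_of_hnpc (h : HasNormalPComplement p G) : PSolv p (⊤ : Subgroup G) := by
  refine PSolv.of_map (QuotientGroup.mk' (pResidual p G))
    (psolv_of_isPGroup (q := p) (Transfer.isPGroup_quotient_pResidual.to_subgroup _)) ?_
  rw [QuotientGroup.ker_mk', inf_top_eq]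
  exact psolv_of_not_dvd (Transfer.hasNormalPComplement_iff_not_dvd.1 h)

end Grp

section Chars
variable {p : ℕ} [hp : Fact p.Prime] {G : Type*} [Group G] [Fintype G]

open Classical in
theorem card_class_pow {x : G} (hx : orderOf x = p) {j : ℕ} (hj : ¬ p ∣ j) :
    #(univ.filter (IsConj (x ^ j))) = #(univ.filter (IsConj x)) := by
  have h1 : ∀ a ∈ univ.filter (IsConj x), orderOf a = p := fun a ha => by
    obtain ⟨c, rfl⟩ := isConj_iff.1 (mem_filter.1 ha).2
    rw [orderOf_conj_eq, hx]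
  rw [← card_image_of_injOn (f := fun a => a ^ j) (s := univ.filter (IsConj x))
    fun a ha b hb h => pow_inj (h1 a ha) (h1 b hb) hj h]
  congr 1
  ext z
  simp only [mem_filter, mem_univ, true_and, mem_image, isConj_iff]
  constructor
  · rintro ⟨c, rfl⟩
    exact ⟨_, ⟨c, rfl⟩, conj_pow⟩
  · rintro ⟨_, ⟨c, rfl⟩, rfl⟩
    exact ⟨c, conj_pow.symm⟩

theorem hnpc_of_simple [IsSimpleGroup G] (P : Sylow p G) [IsCyclic P]
    (hc : ∀ x y : G, orderOf x = p → orderOf y = p →
      PSolv p (Subgroup.closure ({x, y} : Set G))) : HasNormalPComplement p G := by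
  classical
  by_contra hno
  have h1 : ¬ Subgroup.normalizer ((P : Subgroup G) : Set G) ≤
      Subgroup.centralizer ((P : Subgroup G) : Set G) := fun h =>
    hno (Transfer.hasNormalPComplement_of_normalizer_le_centralizer P h)
  obtain ⟨n, hnN, hnC⟩ := SetLike.not_le_iff_exists.1 h1
  have hPc := cyc_comm (P : Subgroup G)
  have hab := abP_of_sylow P hPc
  have hA : ∀ a b : P, a * b = b * a := fun a b => Subtype.ext (hPc _ a.2 _ b.2)
  have hnP : ∀ v ∈ (P : Subgroup G), n * v * n⁻¹ ∈ (P : Subgroup G) := fun v hv => (hnN v).1 hv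
  have hnfree : ∀ u ∈ (P : Subgroup G), u ≠ 1 → n * u * n⁻¹ ≠ u := fun u hu hu1 h =>
    hnC fun v hv => (mul_inv_eq_iff_eq_mul.1 (cyc_free P hu hu1 h hv (hnP v hv))).symm
  have hP1 : (P : Subgroup G) ≠ ⊥ := fun h => hnC fun v hv => by
    have hv' : v ∈ (P : Subgroup G) := hv
    rw [h, Subgroup.mem_bot] at hv'
    simp [hv']
  obtain ⟨x, hxP, hx⟩ :=
    CycSylow.exists_orderOf_eq_of_dvd (dvd_card_of_isPGroup_of_ne_bot P.isPGroup' hP1)
  have hne1 : ∀ z : G, orderOf z = p → z ≠ 1 := fun z hz h => by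
    rw [h, orderOf_one] at hz; exact hp.out.one_lt.ne hz
  have hpow : ∀ z : G, orderOf z = p → z ^ p ^ 1 = 1 := fun z hz => by
    rw [pow_one, ← hz, pow_orderOf_eq_one]
  haveI : Fintype P := Fintype.ofFinite _
  obtain ⟨N, hN⟩ := IsPGroup.iff_card.1 P.isPGroup'
  have hpel : ∀ u : P, (P : Subgroup G).subtype u ^ p ^ N = 1 := fun u => by
    rw [← map_pow, ← hN, pow_card_eq_one', map_one]
  let φ := (P : Subgroup G).normalizerMonoidHom
  have hφ : ∀ m (u : P), ((φ m u : P) : G) = m * u * (m : G)⁻¹ := fun _ _ => rfl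
  let E := φ.range
  haveI : Fintype E := Fintype.ofFinite _
  have hfree : ∀ ε ∈ E, ∀ u, u ≠ 1 → ε u = u → ε = 1 := by
    rintro _ ⟨m, rfl⟩ u hu h
    ext v
    exact cyc_free P u.2 (fun h => hu (Subtype.ext h)) (congrArg Subtype.val h) v.2 (φ m v).2
  have hfus : ∀ u v : P, IsConj ((P : Subgroup G).subtype u) ((P : Subgroup G).subtype v) ↔
      ∃ ε ∈ E, ε u = v := by
    intro u v
    constructor
    · intro h
      obtain ⟨c, hc⟩ := isConj_iff.1 h
      haveI : IsMulCommutative P := IsCyclic.isMulCommutative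
      obtain ⟨m, hm, h2⟩ := P.conj_eq_normalizer_conj_of_mem u c⁻¹ u.2 (by
        rw [inv_inv]; exact hc ▸ v.2)
      refine ⟨φ ⟨m⁻¹, inv_mem hm⟩, ⟨_, rfl⟩, Subtype.ext ?_⟩
      rw [hφ, inv_inv, ← h2, inv_inv]; exact hc
    · rintro ⟨_, ⟨m, rfl⟩, rfl⟩
      exact isConj_iff.2 ⟨m, rfl⟩
  have hnorm : ∀ u : P, u ≠ 1 → ∑ i ∈ B0 p G, chi i ((P : Subgroup G).subtype u) *
      chi i ((P : Subgroup G).subtype u)⁻¹ = Fintype.card P := fun u hu => by
    have hK := hnpc_cent P u.2 (fun h => hu (Subtype.ext h))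
    rw [B0_column_norm (hpel u) hK, index_eq hab P (hpel u) hK, Nat.card_eq_fintype_card]
  let x' : P := ⟨x, hxP⟩
  have hx' : orderOf x' = p := by rw [← Subgroup.orderOf_coe]; exact hx
  have hx'1 : x' ≠ 1 := fun h => hne1 x hx (congrArg Subtype.val h)
  have hpowP : ∀ y : P, orderOf y = p → ∃ j ∈ Ico 1 p, x' ^ j = y := fun y hy => by
    obtain ⟨j, hj, h⟩ := exists_eq_pow (P : Subgroup G) hxP hx y.2 (by rwa [Subgroup.orderOf_coe])
    exact ⟨j, hj, Subtype.ext h⟩
  have hεx : ∀ ε : MulAut P, ∃ j ∈ Ico 1 p, x' ^ j = ε x' := fun ε =>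
    hpowP _ (by rw [ε.orderOf_eq, hx'])
  have he2 : 2 ≤ Fintype.card E := by
    rw [Nat.succ_le_iff, Fintype.one_lt_card_iff]
    refine ⟨⟨φ ⟨n, hnN⟩, ⟨_, rfl⟩⟩, 1, fun h => hnfree x hxP (hne1 x hx) ?_⟩
    have h2 : φ ⟨n, hnN⟩ = 1 := congrArg Subtype.val h
    have h3 := hφ ⟨n, hnN⟩ x'
    rw [h2] at h3
    exact h3.symm
  have he : Fintype.card E + 1 ≤ p := by
    choose f hf hf' using hεx
    have := card_le_card_of_injOn (s := (univ : Finset E)) (t := Ico 1 p) (fun ε => f ε)
      (fun ε _ => hf ε) (fun ε _ δ _ h => by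
        have h2 : (ε : MulAut P) x' = (δ : MulAut P) x' := by
          rw [← hf', ← hf']; exact congrArg _ h
        have h3 : ((δ⁻¹ * ε : E) : MulAut P) x' = x' := by simp [h2]
        exact (inv_mul_eq_one.1 (Subtype.ext (hfree _ (δ⁻¹ * ε).2 x' hx'1 h3))).symm)
    rw [card_univ, Nat.card_Ico] at this
    have := hp.out.pos
    omega
  have hp3 : 3 ≤ p := by omega
  have hcx : ∀ z : G, orderOf z = p → ∃ y ∈ (P : Subgroup G), orderOf y = p ∧ IsConj y z :=
    fun z hz => by
      obtain ⟨g, hg⟩ := exists_conj_mem P (hpow z hz)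
      exact ⟨_, hg, by rw [orderOf_conj_eq, hz], (isConj_iff.2 ⟨g, rfl⟩).symm⟩
  have hK : ∀ z : G, orderOf z = p → HasNormalPComplement p (Subgroup.centralizer {z}) :=
    fun z hz => by
      obtain ⟨g, hg⟩ := exists_conj_mem P (hpow z hz)
      exact hnpc_of_conj (hnpc_cent P hg (hne1 _ (by rw [orderOf_conj_eq, hz])))
  have hndvd : ∀ j ∈ Ico 1 p, ¬ p ∣ j := fun j hj =>
    Nat.not_dvd_of_pos_of_lt (mem_Ico.1 hj).1 (mem_Ico.1 hj).2
  set k := #(univ.filter (IsConj x)) with hkd
  have hk : ∀ z : G, orderOf z = p → #(univ.filter (IsConj z)) = k := fun z hz => by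
    obtain ⟨y, hy, hyp, hyz⟩ := hcx z hz
    obtain ⟨j, hj, rfl⟩ := exists_eq_pow (P : Subgroup G) hxP hx hy hyp
    rw [hkd, ← card_class_pow hx (hndvd j hj)]
    congr 1
    ext a
    simp only [mem_filter, mem_univ, true_and]
    exact ⟨hyz.trans, hyz.symm.trans⟩
  have hD : (DD p G).Nonempty := ⟨x, mem_DD.2 hx⟩
  have hcount : 2 * #(DD p G) ≤ (p - 1) * k := by
    have h2 : ∑ j ∈ Ico 1 p, #((DD p G).filter (IsConj (x ^ j))) =
        ∑ z ∈ DD p G, #((Ico 1 p).filter fun j => IsConj (x ^ j) z) := by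
      simp only [card_filter]
      exact sum_comm
    have h3 : ∑ j ∈ Ico 1 p, #((DD p G).filter (IsConj (x ^ j))) ≤ (p - 1) * k := by
      rw [← Nat.card_Ico, ← smul_eq_mul]
      refine sum_le_card_nsmul _ _ _ fun j hj => ?_
      rw [← hk _ (orderOf_pow_eq hx (hndvd j hj))]
      exact card_le_card (filter_subset_filter _ (subset_univ _))
    refine le_trans ?_ (h2 ▸ h3)
    rw [mul_comm, ← smul_eq_mul]
    refine card_nsmul_le_sum _ _ _ fun z hz => ?_
    obtain ⟨y, hy, hyp, hyz⟩ := hcx z (mem_DD.1 hz)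
    obtain ⟨j, hj, hjy⟩ := exists_eq_pow (P : Subgroup G) hxP hx hy hyp
    obtain ⟨j', hj', hjy'⟩ := exists_eq_pow (P : Subgroup G) hxP hx (hnP y hy)
      (by rw [orderOf_conj_eq, hyp])
    rw [Nat.succ_le_iff, one_lt_card]
    refine ⟨j, mem_filter.2 ⟨hj, hjy ▸ hyz⟩, j', mem_filter.2 ⟨hj', ?_⟩, ?_⟩
    · rw [hjy']; exact (isConj_iff.2 ⟨n, rfl⟩).symm.trans hyz
    · rintro rfl
      exact hnfree y hy (hne1 y hyp) (hjy'.symm.trans hjy)
  have key := core (q := Nat.card P) (k := k) hp3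
    (fun z hz => ⟨hK z hz, index_eq hab P (hpow z hz) (hK z hz)⟩)
    (fun z hz => by convert hk z hz)
    (fun a b ha hb j j' hj hj' => pair_unique hab ha hb (hc a b ha hb) hj hj') hD ?_
  · have hq : p ≤ Nat.card P :=
      Nat.le_of_dvd Nat.card_pos (hx.symm.dvd.trans (Subgroup.orderOf_dvd_natCard _ hxP))
    have hq' : (p : ℝ) ≤ Nat.card P := by exact_mod_cast hq
    have h2 : 2 * (#(DD p G) : ℝ) ≤ (p - 1) * k := by
      have : ((2 * #(DD p G) : ℕ) : ℝ) ≤ ((p - 1) * k : ℕ) := by exact_mod_cast hcount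
      rwa [Nat.cast_mul, Nat.cast_mul, Nat.cast_sub hp.out.one_le, Nat.cast_one,
        Nat.cast_ofNat] at this
    have h3 : (3 : ℝ) ≤ p := by exact_mod_cast hp3
    have hk0 : (0 : ℝ) ≤ k := Nat.cast_nonneg _
    have h4 : (k : ℝ) * p * (p - 2) ≤ k * Nat.card P * (p - 2) :=
      mul_le_mul_of_nonneg_right (mul_le_mul_of_nonneg_left hq' hk0) (by linarith)
    have h5 := mul_le_mul_of_nonneg_right h2 (show (0 : ℝ) ≤ p by linarith)
    have h6 : 0 ≤ (k : ℝ) * p * (p - 3) :=
      mul_nonneg (mul_nonneg hk0 (by linarith)) (by linarith)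
    linarith
  intro i hi hit
  have hker : (P : Subgroup G).subtype x' ∉ kerI i := fun h1 => by
    rcases (kerI_normal i).eq_bot_or_eq_top with h | h
    · rw [h] at h1; exact hne1 x hx h1
    · exact hit (kerI_eq_top_iff.1 h)
  have hb := mult_bound (P : Subgroup G).subtype hA hfree hfus hnorm Subtype.val_injective hpel hp3
    he2 he hx' (fun ε _ => by
      obtain ⟨j, -, h⟩ := hεx ε
      rw [← h]; exact Subgroup.npow_mem_zpowers _ _)
    (n := N) (by rw [← Nat.card_eq_fintype_card, hN]) hi hit hker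
  set J := univ.filter (fun l : Irr P => chi l x' = 1) with hJ
  set m0 : ℕ := ∑ l ∈ J, mult (P : Subgroup G).subtype i l with hm0
  have h2 : ∀ a ∈ DD p G, ∑ j ∈ Ico 1 p, chi i (a ^ j) = p * m0 - deg i := by
    intro a ha
    obtain ⟨y, hy, hyp, hya⟩ := hcx a (mem_DD.1 ha)
    let y' : P := ⟨y, hy⟩
    have hy' : orderOf y' = p := by rw [← Subgroup.orderOf_coe]; exact hyp
    have h3 := sum_chi_pow' (P : Subgroup G).subtype hA (y := y')
      (orderOf_dvd_iff_pow_eq_one.1 hy'.dvd) i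
    have h4 : univ.filter (fun l : Irr P => chi l y' = 1) = J := by
      ext l
      simp only [hJ, mem_filter, mem_univ, true_and]
      obtain ⟨j, -, hj⟩ := exists_eq_pow (P : Subgroup G) hxP hx hy hyp
      obtain ⟨j', -, hj'⟩ := exists_eq_pow (P : Subgroup G) hy hyp hxP hx
      have e1 : y' = x' ^ j := Subtype.ext hj.symm
      have e2 : x' = y' ^ j' := Subtype.ext hj'.symm
      constructor
      · intro h; rw [e2, ← lam_apply hA, map_pow, lam_apply, h, one_pow]
      · intro h; rw [e1, ← lam_apply hA, map_pow, lam_apply, h, one_pow]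
    rw [h4, range_eq_Ico, sum_eq_sum_Ico_succ_bot hp.out.pos, pow_zero, chi_one] at h3
    rw [hm0]
    push_cast
    rw [← h3, add_sub_cancel_left]
    obtain ⟨c, rfl⟩ := isConj_iff.1 hya
    exact sum_congr rfl fun j _ => by rw [conj_pow, isClass_chi]; rfl
  have h3 : ((p : ℂ) - 1) * sig p i = #(DD p G) * (p * m0 - deg i) := by
    have h4 : ∑ j ∈ Ico 1 p, ∑ a ∈ DD p G, chi i (a ^ j) = ((p : ℂ) - 1) * sig p i := by
      rw [sum_congr rfl fun j hj => sum_DD_pow (chi i) (hndvd j hj), sum_const, Nat.card_Ico,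
        nsmul_eq_mul, Nat.cast_sub hp.out.one_le, Nat.cast_one, sig]
    rw [← h4, sum_comm, sum_congr rfl h2, sum_const, nsmul_eq_mul]
  rw [← sig_real] at h3
  have h4 : ((p : ℝ) - 1) * (sig p i).re = #(DD p G) * (p * m0 - deg i) := by exact_mod_cast h3
  have h5 : 2 * (m0 : ℝ) ≤ deg i := by
    have : 2 * (m0 : ℤ) ≤ deg i := by rw [hm0]; push_cast; exact hb
    exact_mod_cast this
  have h6 := mul_le_mul_of_nonneg_left h5
    (mul_nonneg (Nat.cast_nonneg (α := ℝ) #(DD p G)) (Nat.cast_nonneg (α := ℝ) p))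
  linarith

end Chars

theorem isPSolvable_of_psolv {p : ℕ} [hp : Fact p.Prime] (G : Type u) [Group G] [Finite G] :
    PSolv p (⊤ : Subgroup G) → IsPSolvable p G := by
  refine card_induction (P := fun G _ _ => PSolv p (⊤ : Subgroup G) → IsPSolvable p G) ?_ G
  intro G _ _ ih h
  rcases subsingleton_or_nontrivial G with hG | hG
  · exact ⟨0, fun _ => ⊥, rfl, Subsingleton.elim _ _, monotone_const, fun _ => inferInstance,
      fun i => i.elim0⟩
  obtain ⟨N, hN, hN1, hN2⟩ : ∃ N : Subgroup G, N.Normal ∧ N ≠ ⊥ ∧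
      ((∃ m, Nat.card N = p ^ m) ∨ (Nat.card N).Coprime p) := by
    by_cases hO : pPrimeCore p G = ⊥
    · refine ⟨pCore p G, inferInstance, fun h0 => ?_, .inl (IsPGroup.iff_card.1 pCore_isPGroup)⟩
      have := h.centralizer_pCore_le hO
      rw [h0] at this
      obtain ⟨g, hg⟩ := exists_ne (1 : G)
      exact hg (this (fun y hy => by rw [Subgroup.mem_bot.1 hy]; simp))
    · exact ⟨_, inferInstance, hO, .inr (hp.out.coprime_iff_not_dvd.2 pPrimeCore_not_dvd).symm⟩
  obtain ⟨n, H, h0, hl, hm, hn, hs⟩ := ih (G ⧸ N) (card_quotient_lt hN1) (h.quotient N)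
  let π := QuotientGroup.mk' N
  refine ⟨n + 1, Fin.cons ⊥ fun i => (H i).comap π, rfl, ?_, ?_, ?_, ?_⟩
  · rw [← Fin.succ_last, Fin.cons_succ, hl, Subgroup.comap_top]
  · rw [Fin.monotone_iff_le_succ]
    intro i
    rw [Fin.cons_succ]
    induction i using Fin.cases with
    | zero => exact bot_le
    | succ i =>
      rw [← Fin.succ_castSucc, Fin.cons_succ]
      exact Subgroup.comap_mono (hm (Fin.castSucc_lt_succ).le)
  · intro i
    induction i using Fin.cases with
    | zero => exact Subgroup.normal_bot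
    | succ i => rw [Fin.cons_succ]; exact (hn i).comap π
  · intro i
    rw [Fin.cons_succ]
    induction i using Fin.cases with
    | zero =>
      rw [h0, Fin.castSucc_zero, Fin.cons_zero, MonoidHom.comap_bot, QuotientGroup.ker_mk',
        Subgroup.relIndex_bot_left]
      exact hN2
    | succ i =>
      rw [← Fin.succ_castSucc, Fin.cons_succ, Subgroup.relIndex_comap,
        Subgroup.map_comap_eq_self_of_surjective (QuotientGroup.mk'_surjective N)]
      exact hs i

theorem psolv_of_pairs {p : ℕ} [hp : Fact p.Prime] (G : Type u) [Group G] [Finite G] :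
    (∀ S : Sylow p G, IsCyclic S) → (∀ x y : G, orderOf x = p → orderOf y = p →
      PSolv p (Subgroup.closure ({x, y} : Set G))) → PSolv p (⊤ : Subgroup G) := by
  refine card_induction (P := fun G _ _ => (∀ S : Sylow p G, IsCyclic S) →
    (∀ x y : G, orderOf x = p → orderOf y = p →
      PSolv p (Subgroup.closure ({x, y} : Set G))) → PSolv p (⊤ : Subgroup G)) ?_ G
  intro G _ _ ih hcyc hc
  obtain ⟨P⟩ : Nonempty (Sylow p G) := inferInstance
  haveI := hcyc P
  rcases subsingleton_or_nontrivial G with hG | hG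
  · exact fun K _ _ _ => Subsingleton.elim _ _
  by_cases hs : IsSimpleGroup G
  · haveI := Fintype.ofFinite G
    exact psolv_of_hnpc (hnpc_of_simple P hc)
  by_cases hO : pPrimeCore p G = ⊥
  · obtain ⟨N, hN, hN1, hN2⟩ : ∃ N : Subgroup G, N.Normal ∧ N ≠ ⊥ ∧ N ≠ ⊤ := by
      by_contra hne
      push Not at hne
      exact hs ⟨fun N hN => (em (N = ⊥)).imp_right (hne N hN)⟩
    have h1 : PSolv p N := by
      refine psolv_top_iff.1 (ih N (card_lt_of_ne_top hN2) (fun S => ?_) fun x y hx hy => ?_)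
      · obtain ⟨T, hT⟩ := (S.isPGroup'.map N.subtype).exists_le_sylow
        haveI := hcyc T
        haveI := Subgroup.isCyclic_of_le hT
        exact isCyclic_of_surjective _
          ((S : Subgroup N).equivMapOfInjective _ N.subtype_injective).symm.surjective
      · rw [← psolv_map_subtype_iff, MonoidHom.map_closure, Set.image_pair]
        exact hc _ _ (by rwa [Subgroup.subtype_apply, Subgroup.orderOf_coe])
          (by rwa [Subgroup.subtype_apply, Subgroup.orderOf_coe])
    have h2 : OppOf p N = ⊥ := by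
      have := OppOf_mono_of_normal (p := p) (le_top (a := N)) Subgroup.le_normalizer_of_normal
      rwa [OppOf_top, hO, le_bot_iff] at this
    have h3 : pCore p G ≠ ⊥ := fun h0 => by
      have h4 := OpOf_mono_of_normal (p := p) (le_top (a := N)) Subgroup.le_normalizer_of_normal
      rw [OpOf_top, h0, le_bot_iff] at h4
      have h5 := h1.inf_centralizer_OpOf_le h2
      rw [h4] at h5
      exact hN1 (eq_bot_iff.2 fun g hg => h5 ⟨hg, fun y hy => by
        rw [Subgroup.mem_bot.1 hy]; simp⟩)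
    have h4 := CycSylow.centralizer_eq (isSyl_sylow P) hO pCore_isPGroup h3
    have h5 : IsCyclic (pCore p G) := Subgroup.isCyclic_of_le (pCore_le_sylow P)
    intro K _ hK _
    have h6 : K ≤ P := by
      rw [← hK, ← h4, Subgroup.commutator_le]
      exact fun a _ b _ => Glaub.commutatorElement_mem_centralizer_of_isCyclic h5
        (Subgroup.le_normalizer_of_normal (Subgroup.mem_top a))
        (Subgroup.le_normalizer_of_normal (Subgroup.mem_top b))
    rw [← hK, eq_bot_iff, Subgroup.commutator_le]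
    intro a ha b hb
    rw [Subgroup.mem_bot, commutatorElement_eq_one_iff_mul_comm]
    exact cyc_comm _ a (h6 ha) b (h6 hb)
  · set M := pPrimeCore p G with hM
    let π := QuotientGroup.mk' M
    have hπ : Function.Surjective π := QuotientGroup.mk'_surjective M
    have hMp : ¬ p ∣ Nat.card M := pPrimeCore_not_dvd
    have hlift : ∀ x : G ⧸ M, orderOf x = p → ∃ g, orderOf g = p ∧ π g = x := by
      intro x hx
      obtain ⟨g, rfl⟩ := hπ x
      obtain ⟨l, hl⟩ := exists_pow_pow_eq (G := G ⧸ M) hMp 1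
      have h1 : π g ^ p = 1 := orderOf_dvd_iff_pow_eq_one.1 hx.dvd
      have h2 : π ((g ^ Nat.card M) ^ l) = π g := by
        rw [map_pow, map_pow, hl _ (by rw [pow_one, h1])]
      have h3 : g ^ p ∈ M := (QuotientGroup.eq_one_iff _).1 (by rw [← map_pow] at h1; exact h1)
      have h4 : (g ^ p) ^ Nat.card M = 1 :=
        congrArg Subtype.val (pow_card_eq_one' (x := (⟨_, h3⟩ : M)))
      refine ⟨_, orderOf_eq_prime ?_ fun h => ?_, h2⟩
      · rw [← pow_mul, ← pow_mul, show Nat.card M * (l * p) = p * Nat.card M * l by ring, pow_mul,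
          pow_mul, h4, one_pow]
      · rw [h, map_one] at h2
        rw [← h2, orderOf_one] at hx
        exact hp.out.one_lt.ne hx
    refine PSolv.of_map π ?_ ?_
    · refine (ih (G ⧸ M) (card_quotient_lt hO) (fun S => ?_) fun x y hx hy => ?_).mono le_top
      · haveI : IsCyclic (P.mapSurjective hπ) :=
          isCyclic_of_surjective _ (π.subgroupMap_surjective P)
        exact isCyclic_of_surjective _ (Sylow.equiv (P.mapSurjective hπ) S).surjective
      · obtain ⟨a, ha, rfl⟩ := hlift x hx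
        obtain ⟨b, hb, rfl⟩ := hlift y hy
        rw [← Set.image_pair, ← MonoidHom.map_closure]
        exact (hc a b ha hb).map π
    · rw [QuotientGroup.ker_mk', inf_top_eq]
      exact psolv_of_not_dvd hMp

end Cfsg.Agent.Lib.Char.Pair
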