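import Cfsg.Agent.Lib.Char.PairCore

/-!
The case of one class of `p`-elements.
-/

set_option maxHeartbeats 400000
set_option linter.unusedSectionVars false

namespace Cfsg.Agent.Lib.Char.Pair

open Cfsg.Agent.Lib.Char Cfsg.Agent.Lib.Core Finset ComplexConjugate

section Grp
variable {p : ℕ} [hp : Fact p.Prime] {G : Type*} [Group G] [Finite G]

theorem exists_conj_mem (P : Sylow p G) {z : G} {k : ℕ} (hz : z ^ p ^ k = 1) :
    ∃ g : G, g * z * g⁻¹ ∈ (P : Subgroup G) := by
  obtain ⟨S, hS⟩ := (Transfer.isPGroup_zpowers hz).exists_le_sylow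
  obtain ⟨g, rfl⟩ := MulAction.exists_smul_eq G P S
  have h1 := hS (Subgroup.mem_zpowers z)
  rw [Sylow.coe_subgroup_smul, Subgroup.mem_pointwise_smul_iff_inv_smul_mem] at h1
  exact ⟨g⁻¹, by simpa using h1⟩

theorem hnpc_of_conj {z g : G}
    (h : HasNormalPComplement p (Subgroup.centralizer {g * z * g⁻¹})) :
    HasNormalPComplement p (Subgroup.centralizer {z}) := by
  let f : Subgroup.centralizer {z} →* Subgroup.centralizer {g * z * g⁻¹} :=
    ((MulAut.conj g).toMonoidHom.comp (Subgroup.centralizer {z}).subtype).codRestrict _ fun c => by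
      have := Subgroup.mem_centralizer_singleton_iff.1 c.2
      rw [Subgroup.mem_centralizer_singleton_iff]
      show g * c * g⁻¹ * (g * z * g⁻¹) = g * z * g⁻¹ * (g * c * g⁻¹)
      calc _ = g * (c * z) * g⁻¹ := by group
        _ = _ := by rw [this]; group
  refine Transfer.hasNormalPComplement_of_injective h f fun a b hab => ?_
  have := congrArg Subtype.val hab
  exact Subtype.ext ((MulAut.conj g).injective this)

theorem index_eq (hab : AbP p G) (P : Sylow p G) {z : G} {k : ℕ} (hz : z ^ p ^ k = 1)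
    (hK : HasNormalPComplement p (Subgroup.centralizer {z})) :
    (pResidual p (Subgroup.centralizer ({z} : Set G))).index = Nat.card P := by
  obtain ⟨S, hS⟩ := (Transfer.isPGroup_zpowers hz).exists_le_sylow
  have hle : (S : Subgroup G) ≤ Subgroup.centralizer {z} := fun y hy =>
    Subgroup.mem_centralizer_singleton_iff.2
      (hab _ S.isPGroup' y hy z (hS (Subgroup.mem_zpowers z)))
  have h1 := Transfer.isComplement'_pResidual_of_not_dvd
    (Transfer.hasNormalPComplement_iff_not_dvd.1 hK) (S.subtype hle)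
  rw [h1.symm.index_eq_card, Sylow.coe_subtype,
    Nat.card_congr (Subgroup.subgroupOfEquivOfLe hle).toEquiv, S.card_eq_multiplicity,
    P.card_eq_multiplicity]

theorem orderOf_conj_eq (g z : G) : orderOf (g * z * g⁻¹) = orderOf z :=
  (MulAut.conj g).orderOf_eq z

end Grp

section Chars
variable {p : ℕ} [hp : Fact p.Prime] {G : Type*} [Group G] [Fintype G]

theorem exists_ne_triv [Nontrivial G] : ∃ j : Irr G, j ≠ triv G := by
  classical
  by_contra hc
  push Not at hc
  obtain ⟨g, hg⟩ := exists_ne (1 : G)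
  have := sum_deg_mul_chi g
  rw [if_neg hg, Finset.sum_eq_single (triv G) (fun j _ hj => absurd (hc j) hj) (by simp)] at this
  simp at this

theorem sum_chi_inv_eq_zero {j : Irr G} (hj : j ≠ triv G) : ∑ g, chi j g⁻¹ = 0 := by
  have := ip_chi_chi (triv G) j
  rw [if_neg hj.symm] at this
  simpa [ip] using this

theorem normSq_le {u : G} {q : ℕ} (h : ∑ i ∈ B0 p G, chi i u * chi i u⁻¹ = q) {i : Irr G}
    (hi : i ∈ B0 p G) (hit : i ≠ triv G) : Complex.normSq (chi i u) + 1 ≤ q := by
  classical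
  have h1 : ∑ i ∈ B0 p G, Complex.normSq (chi i u) = q := by
    simp only [chi_inv, Complex.mul_conj] at h
    exact_mod_cast h
  have h2 : ∑ j ∈ ({i, triv G} : Finset _), Complex.normSq (chi j u) ≤
      ∑ i ∈ B0 p G, Complex.normSq (chi i u) :=
    sum_le_sum_of_subset_of_nonneg (by
      intro j hj
      rcases mem_insert.1 hj with rfl | hj
      · exact hi
      · rw [mem_singleton.1 hj]; exact triv_mem_B0) fun _ _ _ => Complex.normSq_nonneg _
  rw [sum_pair hit, h1] at h2
  simpa using h2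

theorem int_bound {p t m d s : ℤ} (hp : 3 ≤ p) (ht : 1 ≤ t) (hm : 1 ≤ m) (hd : s = d - p * t * m)
    (hs : s * s + 1 ≤ p * t) : 2 * (p - 1) * s ≤ (p - 2) * d := by
  have h1 : s ≤ (p - 2) * t := by
    by_contra hc
    push Not at hc
    have h2 : (p - 2) * t + 1 ≤ s := hc
    have h3 : 0 ≤ (p - 2) * t := by nlinarith
    have h4 : ((p - 2) * t + 1) * ((p - 2) * t + 1) ≤ s * s := by nlinarith
    rcases hp.eq_or_lt with rfl | hp
    · nlinarith
    · nlinarith [mul_nonneg (show (0 : ℤ) ≤ p - 4 by omega) (show (0 : ℤ) ≤ t by omega),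
        mul_self_nonneg ((p - 2) * t)]
  have h5 : d = s + p * t * m := by linarith
  have h6 : p * t ≤ p * t * m := by nlinarith [mul_nonneg (show (0 : ℤ) ≤ p by omega) (show (0 : ℤ) ≤ t by omega)]
  rw [h5]
  nlinarith [mul_le_mul_of_nonneg_left h6 (show (0 : ℤ) ≤ p - 2 by omega),
    mul_le_mul_of_nonneg_left h1 (show (0 : ℤ) ≤ p by omega)]

theorem eq_two_of_one_class [IsSimpleGroup G] (P : Sylow p G) (hP1 : (P : Subgroup G) ≠ ⊥)
    (hPc : ∀ x ∈ (P : Subgroup G), ∀ y ∈ (P : Subgroup G), x * y = y * x)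
    (hPe : ∀ x ∈ (P : Subgroup G), x ^ p = 1)
    (hconj : ∀ x ∈ (P : Subgroup G), ∀ y ∈ (P : Subgroup G), x ≠ 1 → y ≠ 1 → IsConj x y)
    (hb : ∀ x ∈ (P : Subgroup G), orderOf x = p →
      HasNormalPComplement p (Subgroup.centralizer ({x} : Set G)))
    (hc : ∀ x y : G, orderOf x = p → orderOf y = p →
      PSolv p (Subgroup.closure ({x, y} : Set G))) : p = 2 := by
  classical
  by_contra hp2
  have hp3 : 3 ≤ p := by have := hp.out.two_le; omega
  have hab := abP_of_sylow P hPc
  obtain ⟨⟨x, hxP⟩, hx1⟩ := Subgroup.ne_bot_iff_exists_ne_one.1 hP1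
  have hx1 : x ≠ 1 := fun h => hx1 (Subtype.ext h)
  have hx : orderOf x = p := orderOf_eq_prime (hPe x hxP) hx1
  have hpow : ∀ z : G, orderOf z = p → z ^ p ^ 1 = 1 := fun z hz => by
    rw [pow_one, ← hz, pow_orderOf_eq_one]
  have hcx : ∀ z : G, orderOf z = p → IsConj x z := fun z hz => by
    obtain ⟨g, hg⟩ := exists_conj_mem P (hpow z hz)
    refine (hconj x hxP _ hg hx1 ?_).trans (isConj_iff.2 ⟨g, rfl⟩).symm
    intro h
    have := orderOf_conj_eq g z
    rw [h, orderOf_one, hz] at this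
    exact hp.out.one_lt.ne this
  have hK : ∀ z : G, orderOf z = p → HasNormalPComplement p (Subgroup.centralizer {z}) :=
    fun z hz => by
      obtain ⟨g, hg⟩ := exists_conj_mem P (hpow z hz)
      exact hnpc_of_conj (hb _ hg (by rw [orderOf_conj_eq, hz]))
  have hDD : ∀ z : G, orderOf z = p → univ.filter (IsConj z) = DD p G := fun z hz => by
    ext a
    rw [mem_filter, mem_DD]
    constructor
    · rintro ⟨-, h⟩
      obtain ⟨c, rfl⟩ := isConj_iff.1 h
      rw [orderOf_conj_eq, hz]
    · exact fun ha => ⟨mem_univ _, (hcx z hz).symm.trans (hcx a ha)⟩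
  have hD : (DD p G).Nonempty := ⟨x, mem_DD.2 hx⟩
  obtain ⟨t, ht⟩ : p ∣ Nat.card P := hx.symm.dvd.trans (Subgroup.orderOf_dvd_natCard _ hxP)
  have ht0 : 1 ≤ t := Nat.pos_of_ne_zero (by
    rintro rfl; exact (Nat.card_pos (α := P)).ne' ht)
  have key := core (q := Nat.card P) (k := #(DD p G)) hp3
    (fun z hz => ⟨hK z hz, index_eq hab P (hpow z hz) (hK z hz)⟩)
    (fun z hz => by convert congrArg card (hDD z hz))
    (fun a b ha hb j j' hj hj' => pair_unique hab ha hb (hc a b ha hb) hj hj') hD ?_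
  · have hn : (0 : ℝ) < #(DD p G) := by exact_mod_cast hD.card_pos
    rw [mul_assoc] at key
    have h1 := lt_of_mul_lt_mul_left key hn.le
    rw [ht] at h1
    push_cast at h1
    have h2 : (1 : ℝ) ≤ t := by exact_mod_cast ht0
    have h3 : (3 : ℝ) ≤ p := by exact_mod_cast hp3
    nlinarith [mul_nonneg (sub_nonneg.2 h2) (sub_nonneg.2 h3)]
  intro i hi hit
  haveI : Fintype P := Fintype.ofFinite _
  haveI : Nontrivial P := (Subgroup.nontrivial_iff_ne_bot _).2 hP1
  obtain ⟨j, hj⟩ := exists_ne_triv (G := P)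
  have hj1 : deg j = 1 := deg_eq_one_of_comm (fun a b => Subtype.ext (hPc _ a.2 _ b.2)) j
  obtain ⟨m, hm⟩ := ((isChar_chi i).comp (P : Subgroup G).subtype).ip_nat (isChar_chi j)
  have hq : (Fintype.card P : ℂ) = p * t := by
    rw [← Nat.card_eq_fintype_card, ht]; push_cast; rfl
  have hs : chi i x = deg i - p * t * m := by
    have h1 : ∀ u : P, chi i u * chi j u⁻¹ =
        chi i x * chi j u⁻¹ + if u = 1 then deg i - chi i x else 0 := by
      intro u
      split_ifs with hu
      · subst hu; simp [chi_one, hj1]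
      · rw [(isClass_chi i).of_isConj (hconj _ u.2 x hxP (fun h => hu (Subtype.ext h)) hx1),
          add_zero]
    rw [ip] at hm
    simp only [Function.comp_apply, Subgroup.coe_subtype, h1, sum_add_distrib, ← mul_sum,
      sum_chi_inv_eq_zero hj, sum_ite_eq', mem_univ, if_true] at hm
    rw [← hq, ← hm]
    have := card_ne_zero' (G := P)
    field_simp
    ring
  have hm1 : 1 ≤ m := Nat.pos_of_ne_zero (by
    rintro rfl
    have h1 : x ∈ kerI i := mem_kerI.2 (by simpa using hs)
    rcases (kerI_normal i).eq_bot_or_eq_top with h | h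
    · rw [h] at h1; exact hx1 h1
    · exact hit (kerI_eq_top_iff.1 h))
  set s : ℤ := deg i - p * t * m with hsd
  have hs' : chi i x = s := by rw [hs, hsd]; push_cast; rfl
  have h1 := normSq_le (q := Nat.card P) (u := x) (by
    rw [B0_column_norm (hpow x hx) (hK x hx), index_eq hab P (hpow x hx) (hK x hx)]) hi hit
  rw [hs', ht, Complex.normSq_intCast] at h1
  have h2 := int_bound (p := p) (t := t) (m := m) (d := deg i) (s := s) (by exact_mod_cast hp3)
    (by exact_mod_cast ht0) (by exact_mod_cast hm1) hsd (by exact_mod_cast h1)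
  have h3 : sig p i = #(DD p G) * s := by
    rw [sig, sum_congr rfl fun a ha => ((isClass_chi i).of_isConj (hcx a (mem_DD.1 ha))).symm,
      sum_const, nsmul_eq_mul, hs']
  have h4 : (sig p i).re = #(DD p G) * s := by rw [h3]; simp
  have h5 : 2 * ((p : ℝ) - 1) * s ≤ (p - 2) * deg i := by exact_mod_cast h2
  rw [h4]
  nlinarith [mul_le_mul_of_nonneg_left h5 (Nat.cast_nonneg (α := ℝ) #(DD p G))]

end Chars

end Cfsg.Agent.Lib.Char.Pair
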