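import Cfsg.Agent.Lib.Char.PairElem
import Cfsg.Agent.Lib.Char.PairComb

/-!
Restriction of principal block characters to an abelian Sylow subgroup with free fusion.
-/

set_option maxHeartbeats 400000
set_option linter.unusedSectionVars false

namespace Cfsg.Agent.Lib.Char.Pair

open Cfsg.Agent.Lib.Char Finset ComplexConjugate

section Act
variable {A : Type*} [Group A] [Fintype A] (hA : ∀ a b : A, a * b = b * a)
include hA

/-- the linear character -/
noncomputable def lam (l : Irr A) : A →* ℂ := linOf (deg_eq_one_of_comm hA l)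

theorem lam_apply (l : Irr A) (u : A) : lam hA l u = chi l u := rfl

/-- action of automorphisms on characters -/
noncomputable def act (ε : MulAut A) (l : Irr A) : Irr A :=
  (exists_chi_eq_lin ((lam hA l).comp ε.toMonoidHom)).choose

theorem chi_act (ε : MulAut A) (l : Irr A) (u : A) : chi (act hA ε l) u = chi l (ε u) :=
  congrFun (exists_chi_eq_lin ((lam hA l).comp ε.toMonoidHom)).choose_spec u

theorem act_one (l : Irr A) : act hA 1 l = l := chi_injective (funext fun u => chi_act hA 1 l u)

theorem act_act (ε δ : MulAut A) (l : Irr A) : act hA ε (act hA δ l) = act hA (δ * ε) l :=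
  chi_injective (funext fun u => by rw [chi_act, chi_act, chi_act]; rfl)

theorem act_triv (ε : MulAut A) : act hA ε (triv A) = triv A :=
  chi_injective (funext fun u => by rw [chi_act]; simp)

theorem chi_one' (l : Irr A) : chi l 1 = 1 := by simp [chi_one, deg_eq_one_of_comm hA l]

theorem eq_triv_of_act_eq {ε : MulAut A} (hε : ∀ u, ε u = u → u = 1) {l : Irr A}
    (h : act hA ε l = l) : l = triv A := by
  have hinj : Function.Injective fun u => u⁻¹ * ε u := by
    intro u v huv
    have h1 : ε (u * v⁻¹) = u * v⁻¹ := by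
      have h2 : u⁻¹ * ε u = v⁻¹ * ε v := huv
      rw [map_mul, map_inv, mul_inv_eq_iff_eq_mul, mul_assoc, ← h2, mul_inv_cancel_left]
    exact mul_inv_eq_one.1 (hε _ h1)
  rw [eq_triv_iff]
  funext w
  obtain ⟨u, rfl⟩ := Finite.surjective_of_injective hinj w
  have h1 := chi_act hA ε l u
  rw [h] at h1
  show lam hA l (u⁻¹ * ε u) = 1
  rw [map_mul, lam_apply hA l (ε u), ← h1, ← lam_apply hA l u, ← map_mul, inv_mul_cancel, map_one]

variable (E : Subgroup (MulAut A))

/-- orbit relation on characters -/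
def Rel (l m : Irr A) : Prop := ∃ ε : E, act hA ε l = m

theorem Rel.refl (l : Irr A) : Rel hA E l l := ⟨1, act_one hA l⟩

variable {E}

theorem Rel.symm {l m : Irr A} (h : Rel hA E l m) : Rel hA E m l := by
  obtain ⟨ε, rfl⟩ := h
  exact ⟨ε⁻¹, by rw [act_act]; simp [act_one]⟩

variable (hfree : ∀ ε ∈ E, ∀ u, u ≠ 1 → ε u = u → ε = 1)
include hfree

theorem act_inj {l : Irr A} (hl : l ≠ triv A) : Function.Injective fun ε : E => act hA ε l := by
  intro ε δ h
  have h1 : act hA (ε * δ⁻¹ : E) l = l := by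
    have h2 : act hA ε l = act hA δ l := h
    rw [Subgroup.coe_mul, ← act_act, h2, act_act]
    simp [act_one]
  by_contra hne
  refine hl (eq_triv_of_act_eq hA (fun u hu => ?_) h1)
  by_contra hu1
  exact hne (mul_inv_eq_one.1 (Subtype.ext (hfree _ (ε * δ⁻¹).2 u hu1 hu)))

open Classical in
theorem card_rel [Fintype E] {l : Irr A} (hl : l ≠ triv A) :
    #(univ.filter (Rel hA E l)) = Fintype.card E := by
  rw [← card_univ, ← card_image_of_injective _ (act_inj hA hfree hl)]
  congr 1
  ext m
  simp [Rel]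

open Classical in
theorem sum_ite_act [Fintype E] {l : Irr A} (hl : l ≠ triv A) (m : Irr A) :
    ∑ ε : E, (if act hA ε l = m then (1 : ℂ) else 0) = if Rel hA E l m then 1 else 0 := by
  split_ifs with h
  · obtain ⟨ε, rfl⟩ := h
    rw [sum_eq_single ε, if_pos rfl]
    · exact fun δ _ hδ => if_neg fun h => hδ (act_inj hA hfree hl h)
    · simp
  · exact sum_eq_zero fun ε _ => if_neg fun h' => h ⟨ε, h'⟩

omit hA in
open Classical in
theorem sum_orbit [Fintype E] {u : A} (hu : u ≠ 1) (g : A → ℂ) :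
    ∑ v, (if ∃ ε ∈ E, ε u = v then g v else 0) = ∑ ε : E, g ((ε : MulAut A) u) := by
  have hinj : Function.Injective fun ε : E => (ε : MulAut A) u := by
    intro ε δ h
    have h1 : (ε : MulAut A) u = (δ : MulAut A) u := h
    have h2 : ((δ⁻¹ * ε : E) : MulAut A) u = u := by simp [h1]
    exact (inv_mul_eq_one.1 (Subtype.ext (hfree _ (δ⁻¹ * ε).2 u hu h2))).symm
  rw [← sum_filter, ← sum_image (f := g) (s := univ) hinj.injOn]
  congr 1
  ext v
  simp

end Act

section Gram
variable {p : ℕ} [hp : Fact p.Prime] {G : Type*} [Group G] [Fintype G]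
  {A : Type*} [Group A] [Fintype A] (ι : A →* G)

/-- multiplicity of `l` in the restriction of `i` -/
noncomputable def mult (i : Irr G) (l : Irr A) : ℕ :=
  (((isChar_chi i).comp ι).ip_nat (isChar_chi l)).choose

theorem mult_spec (i : Irr G) (l : Irr A) : ip (chi i ∘ ι) (chi l) = mult ι i l :=
  (((isChar_chi i).comp ι).ip_nat (isChar_chi l)).choose_spec

theorem mult_eq (i : Irr G) (l : Irr A) :
    (Fintype.card A : ℂ) * mult ι i l = ∑ u, chi i (ι u) * chi l u⁻¹ := by
  rw [← mult_spec, ip, mul_inv_cancel_left₀ card_ne_zero']; rfl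

theorem mult_eq' (i : Irr G) (l : Irr A) :
    (Fintype.card A : ℂ) * mult ι i l = ∑ u, chi i (ι u)⁻¹ * chi l u := by
  have := congrArg conj (mult_eq ι i l)
  rw [map_mul, map_natCast, map_natCast, map_sum] at this
  rw [this]
  exact sum_congr rfl fun u _ => by rw [map_mul, ← chi_inv, ← chi_inv, inv_inv]

theorem chi_eq_sum_mult (i : Irr G) (u : A) : chi i (ι u) = ∑ l, (mult ι i l : ℂ) * chi l u := by
  have := ((isChar_chi i).comp ι).isClass.apply_eq_sum u
  simp only [mult_spec] at this
  exact this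

theorem mult_triv (l : Irr A) : mult ι (triv G) l = if triv A = l then 1 else 0 := by
  have := mult_spec ι (triv G) l
  rw [show chi (triv G) ∘ ι = chi (triv A) by funext u; simp, ip_chi_chi] at this
  split_ifs at this ⊢ <;> exact_mod_cast this.symm

variable (hA : ∀ a b : A, a * b = b * a) {E : Subgroup (MulAut A)} [Fintype E]
  (hfree : ∀ ε ∈ E, ∀ u, u ≠ 1 → ε u = u → ε = 1)
  (hfus : ∀ u v, IsConj (ι u) (ι v) ↔ ∃ ε ∈ E, ε u = v)
  (hnorm : ∀ u, u ≠ 1 → ∑ i ∈ B0 p G, chi i (ι u) * chi i (ι u)⁻¹ = Fintype.card A)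
  (hι : Function.Injective ι) {k : ℕ} (hpel : ∀ u, ι u ^ p ^ k = 1)

include hA hι hpel in
theorem deg_orth (l m : Irr A) :
    ∑ i ∈ B0 p G, (deg i : ℤ) * ((mult ι i l : ℤ) - mult ι i m) = 0 := by
  have h1 : ∑ i ∈ B0 p G, (deg i : ℂ) * ((Fintype.card A : ℂ) * mult ι i l -
      (Fintype.card A : ℂ) * mult ι i m) = 0 := by
    simp only [mult_eq, ← sum_sub_distrib, mul_sum]
    rw [sum_comm]
    refine sum_eq_zero fun u _ => ?_
    by_cases hu : u = 1
    · subst hu; simp [chi_one' hA]
    have h2 : ¬ PSec p (ι u) 1 := fun h =>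
      not_pReg_of_pSec (PSec.refl _) (hpel u) (fun h => hu (hι (h.trans (map_one ι).symm)))
        (pSec_one_iff.1 h)
    have h3 := B0_orthogonality h2
    rw [inv_one] at h3
    simp only [chi_one] at h3
    calc _ = (∑ i ∈ B0 p G, chi i (ι u) * deg i) * (chi l u⁻¹ - chi m u⁻¹) := by
          rw [sum_mul]; exact sum_congr rfl fun i _ => by ring
      _ = 0 := by rw [h3, zero_mul]
  have h4 : (Fintype.card A : ℂ) * ∑ i ∈ B0 p G, (deg i : ℂ) * ((mult ι i l : ℂ) - mult ι i m) = 0 := by
    rw [← h1, mul_sum]; exact sum_congr rfl fun i _ => by ring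
  have h5 := (mul_eq_zero.1 h4).resolve_left card_ne_zero'
  exact_mod_cast h5

include hA hfree hfus hnorm hpel in
open Classical in
theorem gram (l m l' m' : Irr A) :
    ∑ i ∈ B0 p G, ((mult ι i l : ℂ) - mult ι i m) * ((mult ι i l' : ℂ) - mult ι i m') =
      ∑ ε : E, (if act hA ε l' = l then (1 : ℂ) else 0) -
      ∑ ε : E, (if act hA ε l' = m then (1 : ℂ) else 0) -
      ∑ ε : E, (if act hA ε m' = l then (1 : ℂ) else 0) +
      ∑ ε : E, (if act hA ε m' = m then (1 : ℂ) else 0) := by
  set q : ℂ := (Fintype.card A : ℂ) with hq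
  have hq0 : q ≠ 0 := card_ne_zero'
  let f : A → ℂ := fun u => chi l u⁻¹ - chi m u⁻¹
  let g : A → ℂ := fun v => chi l' v - chi m' v
  have h1 : ∀ i, q * ((mult ι i l : ℂ) - mult ι i m) = ∑ u, chi i (ι u) * f u := fun i => by
    rw [mul_sub, mult_eq, mult_eq, ← sum_sub_distrib]
    exact sum_congr rfl fun u _ => by simp only [f]; ring
  have h2 : ∀ i, q * ((mult ι i l' : ℂ) - mult ι i m') = ∑ v, chi i (ι v)⁻¹ * g v := fun i => by
    rw [mul_sub, mult_eq', mult_eq', ← sum_sub_distrib]
    exact sum_congr rfl fun u _ => by simp only [g]; ring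
  have h3 : ∀ u v, u ≠ 1 → ∑ i ∈ B0 p G, chi i (ι u) * chi i (ι v)⁻¹ =
      if ∃ ε ∈ E, ε u = v then q else 0 := by
    intro u v hu
    split_ifs with h
    · rw [← hfus] at h
      rw [← hnorm u hu]
      obtain ⟨c, hc⟩ := isConj_iff.1 h
      refine sum_congr rfl fun i _ => ?_
      rw [← hc, conj_inv, isClass_chi]
    · rw [← hfus] at h
      exact B0_orthogonality fun h' => h (h'.isConj (hpel u) (hpel v))
  have h4 : ∀ u, ∑ v, ∑ i ∈ B0 p G, chi i (ι u) * f u * (chi i (ι v)⁻¹ * g v) =
      q * ∑ ε : E, g ((ε : MulAut A) u) * f u := by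
    intro u
    by_cases hu : u = 1
    · subst hu; simp [f, chi_one' hA]
    rw [← sum_mul, ← sum_orbit hfree hu, sum_mul, mul_sum]
    refine sum_congr rfl fun v _ => ?_
    calc _ = (∑ i ∈ B0 p G, chi i (ι u) * chi i (ι v)⁻¹) * (g v * f u) := by
          rw [sum_mul]; exact sum_congr rfl fun i _ => by ring
      _ = _ := by rw [h3 u v hu]; split_ifs <;> simp
  have h5 : ∀ (ε : E) (x y : Irr A), ∑ u, chi x ((ε : MulAut A) u) * chi y u⁻¹ =
      q * if act hA ε x = y then 1 else 0 := fun ε x y => by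
    rw [← ip_chi_chi, ip, mul_inv_cancel_left₀ hq0]
    exact sum_congr rfl fun u _ => by rw [chi_act]
  apply mul_left_cancel₀ (mul_ne_zero hq0 hq0)
  calc _ = ∑ i ∈ B0 p G, (q * ((mult ι i l : ℂ) - mult ι i m)) *
          (q * ((mult ι i l' : ℂ) - mult ι i m')) := by
        rw [mul_sum]; exact sum_congr rfl fun i _ => by ring
    _ = ∑ u, ∑ v, ∑ i ∈ B0 p G, chi i (ι u) * f u * (chi i (ι v)⁻¹ * g v) := by
        simp only [h1, h2, sum_mul_sum]
        rw [sum_comm]
        exact sum_congr rfl fun u _ => sum_comm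
    _ = q * ∑ ε : E, ∑ u, g ((ε : MulAut A) u) * f u := by
        simp only [h4]
        rw [← mul_sum, sum_comm]
    _ = _ := by
        rw [mul_assoc]
        congr 1
        rw [← sum_sub_distrib, ← sum_sub_distrib, ← sum_add_distrib, mul_sum]
        refine sum_congr rfl fun ε _ => ?_
        rw [mul_add, mul_sub, mul_sub, ← h5, ← h5, ← h5, ← h5, ← sum_sub_distrib,
          ← sum_sub_distrib, ← sum_add_distrib]
        exact sum_congr rfl fun u _ => by simp only [f, g]; ring

theorem sum_pow_lin {z : ℂ} {n : ℕ} (hz : z ^ n = 1) :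
    ∑ j ∈ range n, z ^ j = if z = 1 then (n : ℂ) else 0 := by
  split_ifs with h
  · simp [h]
  · rw [geom_sum_eq h, hz, sub_self, zero_div]

include hA in
theorem sum_chi_pow {y : A} (hy : y ^ p = 1) (l : Irr A) :
    ∑ j ∈ range p, chi l (y ^ j) = if chi l y = 1 then (p : ℂ) else 0 := by
  rw [← sum_pow_lin (by rw [← lam_apply hA, ← map_pow, hy, map_one])]
  exact sum_congr rfl fun j _ => by rw [← lam_apply hA, map_pow, lam_apply]

include hA in
theorem sum_chi_pow' {y : A} (hy : y ^ p = 1) (i : Irr G) :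
    ∑ j ∈ range p, chi i (ι y ^ j) =
      p * ∑ l ∈ univ.filter (fun l => chi l y = 1), (mult ι i l : ℂ) := by
  simp only [← map_pow, chi_eq_sum_mult]
  rw [sum_comm, sum_filter, mul_sum]
  refine sum_congr rfl fun l _ => ?_
  rw [← mul_sum, sum_chi_pow hA hy]
  split_ifs <;> ring

include hA in
theorem card_irr : Fintype.card (Irr A) = Fintype.card A := by
  classical
  have := sum_deg_mul_chi (1 : A)
  simp only [chi_one, deg_eq_one_of_comm hA, Nat.cast_one, mul_one, sum_const, card_univ,
    nsmul_eq_mul, if_true] at this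
  exact_mod_cast this

include hA in
theorem card_ker {y : A} (hy : orderOf y = p) :
    p * #(univ.filter fun l : Irr A => chi l y = 1) = Fintype.card A := by
  classical
  have hyp : y ^ p = 1 := by rw [← hy, pow_orderOf_eq_one]
  have h1 : ∑ l : Irr A, ∑ j ∈ range p, chi l (y ^ j) = Fintype.card A := by
    rw [sum_comm, sum_eq_single 0]
    · have := sum_deg_mul_chi (1 : A)
      simpa [deg_eq_one_of_comm hA] using this
    · intro j hj hj0
      have := sum_deg_mul_chi (y ^ j)
      rw [if_neg (pow_ne_one_of_lt_orderOf hj0 (by rw [hy]; exact mem_range.1 hj))] at this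
      simpa [deg_eq_one_of_comm hA] using this
    · intro h; exact absurd (mem_range.2 hp.out.pos) h
  simp only [sum_chi_pow hA hyp] at h1
  rw [← sum_filter, sum_const, nsmul_eq_mul, mul_comm] at h1
  exact_mod_cast h1

include hA hfree hfus hnorm hι hpel in
open Classical in
theorem mult_bound (hp3 : 3 ≤ p) (he2 : 2 ≤ Fintype.card E) (he : Fintype.card E + 1 ≤ p)
    {x : A} (hx : orderOf x = p) (hxE : ∀ ε ∈ E, ε x ∈ Subgroup.zpowers x)
    {n : ℕ} (hq : Fintype.card A = p ^ n)
    {i : Irr G} (hi : i ∈ B0 p G) (hit : i ≠ triv G) (hker : ι x ∉ kerI i) :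
    2 * ∑ l ∈ univ.filter (fun l => chi l x = 1), (mult ι i l : ℤ) ≤ deg i := by
  set J := univ.filter (fun l : Irr A => chi l x = 1) with hJ
  set I1 := univ.filter (fun l : Irr A => ¬ chi l x = 1) with hI1
  have htJ : triv A ∈ J := by simp [hJ]
  have hd : (deg i : ℤ) = ∑ l ∈ J, (mult ι i l : ℤ) + ∑ l ∈ I1, (mult ι i l : ℤ) := by
    rw [sum_filter_add_sum_filter_not]
    have := chi_eq_sum_mult ι i 1
    simp only [map_one, chi_one i, chi_one' hA, mul_one] at this
    exact_mod_cast this
  have hl0 : ∃ l ∈ I1, 1 ≤ (mult ι i l : ℤ) := by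
    by_contra hc
    push Not at hc
    apply hker
    rw [mem_kerI, chi_eq_sum_mult, ← chi_one, ← map_one ι, chi_eq_sum_mult]
    refine sum_congr rfl fun l _ => ?_
    by_cases hl : chi l x = 1
    · rw [hl, chi_one' hA]
    · have := hc l (mem_filter.2 ⟨mem_univ _, hl⟩)
      rw [show mult ι i l = 0 by omega]; simp
  obtain ⟨l0, hl0, hl1⟩ := hl0
  have hw := card_ker hA hx
  rw [← hJ] at hw
  have hkey : ∀ (ε : E) l, chi l x = 1 → chi (act hA ε l) x = 1 := by
    intro ε l hl
    obtain ⟨r, hr⟩ := (mem_zpowers_iff_mem_range_orderOf.trans mem_image).1 (hxE ε ε.2)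
    rw [chi_act, ← hr.2, ← lam_apply hA, map_pow, lam_apply, hl, one_pow]
  have key := comb (B0 p G) (fun i l => (mult ι i l : ℤ)) (fun _ _ => Int.natCast_nonneg _)
    (fun i => deg i) (triv A) (Rel hA E) (Rel.refl hA E) (fun _ _ => Rel.symm hA)
    (Fintype.card E) p #J (J.erase (triv A)) I1 (notMem_erase _ _) (by simp [hI1])
    (card_erase_add_one htJ)
    (by rw [hw, add_comm, card_filter_add_card_filter_not, card_univ, card_irr hA])
    (by
      rw [hq] at hw
      obtain ⟨j, -, hj⟩ := (Nat.dvd_prime_pow hp.out).1 (Dvd.intro_left _ hw)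
      rcases j with _ | j
      · left; simpa using hj
      · right; rw [hj]; exact Nat.le_self_pow (by omega) p)
    hp3 he2 he (fun l hl => by convert card_rel hA hfree hl)
    (fun l hl m h => by
      obtain ⟨ε, rfl⟩ := h.symm
      exact mem_filter.2 ⟨mem_univ _, fun h => (mem_filter.1 hl).2 (hkey ε m h)⟩)
    (fun l hl h => (mem_filter.1 h).2 (mem_filter.1 (mem_of_mem_erase hl)).2)
    (fun l m l' m' _ _ hl' hm' => by
      have := gram ι hA hfree hfus hnorm hpel l m l' m'
      rw [sum_ite_act hA hfree hl', sum_ite_act hA hfree hl', sum_ite_act hA hfree hm',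
        sum_ite_act hA hfree hm'] at this
      apply Int.cast_injective (α := ℂ)
      push_cast
      exact this)
    (fun l hl => by
      have := gram ι hA hfree hfus hnorm hpel (triv A) l (triv A) l
      rw [sum_ite_act hA hfree hl, sum_ite_act hA hfree hl, if_pos (Rel.refl hA E l),
        if_neg (fun h => by
          obtain ⟨ε, hε⟩ := h.symm
          exact hl (by rw [← hε, act_triv]))] at this
      simp only [act_triv, if_true, if_neg hl.symm, sum_const, card_univ, nsmul_eq_mul, mul_one,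
        mul_zero, sub_zero] at this
      apply Int.cast_injective (α := ℂ)
      push_cast
      exact this)
    (deg_orth ι hA hι hpel) triv_mem_B0 (by simp [mult_triv])
    (fun l hl => by simp [mult_triv, hl.symm]) hi hit (by exact_mod_cast deg_pos i) hl0 hl1
  rw [add_sum_erase J (fun l => (mult ι i l : ℤ)) htJ] at key
  linarith

end Gram

end Cfsg.Agent.Lib.Char.Pair
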